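import Cfsg.Agent.H628.FR.Par
import Cfsg.Agent.H641.TC6.FTor
import Cfsg.Agent.H727.TC.Row3
import Cfsg.Agent.H727.TC.Long
import Cfsg.Agent.H221.TC.One

/-!
# S2452, `F₄(q)`, `q` odd: `Row3` from one ratio (helper982)
-/

set_option autoImplicit false
set_option linter.unusedSectionVars false
set_option linter.style.haveILetI false

open Cfsg Cfsg.Lie Subgroup

namespace Cfsg.Agent.H982.FR

open Cfsg.Agent.H65.Ore Cfsg.Agent.H221.TC Cfsg.Agent.H210.TC
open Cfsg.Agent.H641.TC6 (tor12_F4 tor8_F4 two_mul_half odd_half)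

/-- the order of `F₄(q)`-torus elements: coprimality of the two orders -/
theorem coprime_nums (q : ℕ) : Nat.Coprime (q ^ 4 - q ^ 2 + 1) (q ^ 4 + 1) := by
  have hle : q ^ 2 ≤ q ^ 4 := by
    rcases Nat.eq_zero_or_pos q with rfl | h
    · norm_num
    · exact Nat.pow_le_pow_right h (by norm_num)
  rw [← Nat.isCoprime_iff_coprime]
  push_cast [Nat.cast_sub hle]
  exact ⟨(q : ℤ) ^ 2, 1 - (q : ℤ) ^ 2, by ring⟩

theorem not_dvd_num12 {p q : ℕ} (hp : p.Prime) (hpq : p ∣ q) : ¬ p ∣ q ^ 4 - q ^ 2 + 1 := by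
  intro h
  have h1 : p ∣ q ^ 4 - q ^ 2 := Nat.dvd_sub (dvd_pow hpq (by norm_num)) (dvd_pow hpq (by norm_num))
  exact hp.one_lt.ne' (Nat.dvd_one.1 ((Nat.dvd_add_right h1).1 h))

theorem not_dvd_num8 {p q : ℕ} (hp : p.Prime) (hpq : p ∣ q) : ¬ p ∣ q ^ 4 + 1 := by
  intro h
  exact hp.one_lt.ne' (Nat.dvd_one.1 ((Nat.dvd_add_right (dvd_pow hpq (by norm_num))).1 h))

theorem coprime6_12 (q : ℕ) : Nat.Coprime (q ^ 4 - q ^ 2 + 1) 6 := by
  have hle : q ^ 2 ≤ q ^ 4 := by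
    rcases Nat.eq_zero_or_pos q with rfl | h
    · norm_num
    · exact Nat.pow_le_pow_right h (by norm_num)
  have h1 : ((q ^ 4 - q ^ 2 + 1 : ℕ) : ZMod 6) = (q : ZMod 6) ^ 4 - (q : ZMod 6) ^ 2 + 1 := by
    push_cast [Nat.cast_sub hle]
    ring
  rw [← ZMod.isUnit_iff_coprime, h1]
  generalize (q : ZMod 6) = x
  revert x
  decide

theorem coprime3_8 (q : ℕ) : ¬ 3 ∣ q ^ 4 + 1 := by
  rw [← ZMod.natCast_eq_zero_iff]
  push_cast
  generalize (q : ZMod 3) = x
  revert x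
  decide

/-- **The row, from the ratio `1 / 10`** (parity: `H628.FR.prd_of_ratio_even`). -/
theorem row3_of_ratio {K : Type} [Field K] [Fintype K] {p : ℕ} (hp : p.Prime) [CharP K p] (hp2 : p ≠ 2)
    (hq : 5 ≤ Fintype.card K)
    (h : ∀ g : ↥(chevF4.group K), p ∣ orderOf g → ∀ χ : IrrCharacter ↥(chevF4.group K), χ ≠ one1 _ →
      10 * ‖(χ : ↥(chevF4.group K) → ℂ) g‖ < ‖(χ : ↥(chevF4.group K) → ℂ) 1‖) :
    Row3 ↥(chevF4.group K) := by
  classical
  have : Fact p.Prime := ⟨hp⟩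
  obtain ⟨q, hqc⟩ : ∃ q, Fintype.card K = q := ⟨_, rfl⟩
  rw [hqc] at hq
  obtain ⟨n, -, hn⟩ := FiniteField.card K p
  have hpq : p ∣ q := by
    rw [← hqc, hn]
    exact dvd_pow_self p n.pos.ne'
  have hodd : Odd q := by
    rw [← hqc, hn]
    exact (hp.odd_of_ne_two hp2).pow
  have hG : IsLieTypeChar p ↥(chevF4.group K) :=
    Or.inr (Or.inr (Or.inr (Or.inr (Or.inr (Or.inr (Or.inl
      ⟨K, inferInstance, inferInstance, inferInstance, Or.inr (Or.inl ⟨MulEquiv.refl _⟩)⟩))))))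
  obtain ⟨T, -, -, hTc, hTab, hTcent, -, hTrel, -⟩ := tor12_F4 (F := K) hqc (by omega)
  obtain ⟨B, S, -, hBS, -, hSc, hBc, hSab, hBcent, -, -, hSrel, -, -⟩ := tor8_F4 (F := K) hqc hodd (by omega)
  have hT : Tor T T 1 := tor_one hTab fun a ha h1 => (hTcent a ha h1).le
  have h28 := two_mul_half hodd
  have hSc2 : Nat.card S = 2 * Nat.card B := by rw [hSc, hBc]; exact h28
  have hS : Tor B S 2 := by
    refine ⟨hSab, hBS, fun a ha h1 => (hBcent a ha h1).le, fun t ht => ?_, ?_⟩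
    · have h1 : (B.subgroupOf S).index = 2 := by
        have h2 := Subgroup.card_mul_index (B.subgroupOf S)
        rw [Nat.card_congr (Subgroup.subgroupOfEquivOfLe hBS).toEquiv, hSc2, mul_comm 2] at h2
        exact Nat.eq_of_mul_eq_mul_left Nat.card_pos h2
      have h3 : (B.subgroupOf S).Normal := by
        refine ⟨fun a ha g => ?_⟩
        have h4 : g * a * g⁻¹ = a := by
          apply Subtype.ext
          have h5 := hSab g g.2 a a.2
          show (g : ↥(chevF4.group K)) * a * (g : ↥(chevF4.group K))⁻¹ = a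
          rw [h5]; group
        rwa [h4]
      have h4 := Subgroup.pow_index_mem (B.subgroupOf S) (⟨t, ht⟩ : S)
      rw [h1] at h4
      exact h4
    · rw [hBc]
      exact (Nat.prime_two.coprime_iff_not_dvd).2 (odd_half hodd)
  have hq2 : 25 ≤ q ^ 2 := by nlinarith
  have hq4 : q ^ 4 = q ^ 2 * q ^ 2 := by ring
  have hTbig : 205 < Nat.card T := by
    rw [hTc]
    have : 25 * q ^ 2 ≤ q ^ 4 := by rw [hq4]; exact Nat.mul_le_mul_right _ hq2
    omega
  have hBbig : 105 < Nat.card B := by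
    rw [hBc]
    have : 25 * q ^ 2 ≤ q ^ 4 := by rw [hq4]; exact Nat.mul_le_mul_right _ hq2
    omega
  have hdis : ∀ t ∈ T, t ^ 1 ≠ 1 → ∀ s ∈ S, s ^ 2 ≠ 1 → ∀ z : ↥(chevF4.group K), t ≠ z * s * z⁻¹ := by
    intro t ht ht1 s hs _ z hz
    apply ht1
    rw [pow_one, ← orderOf_eq_one_iff]
    have h1 : orderOf t ∣ q ^ 4 - q ^ 2 + 1 := by
      rw [← hTc, ← Subgroup.orderOf_mk t ht]
      exact orderOf_dvd_natCard _
    have h2 : orderOf s ∣ q ^ 4 + 1 := by
      rw [← hSc, ← Subgroup.orderOf_mk s hs]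
      exact orderOf_dvd_natCard _
    have h3 : orderOf t = orderOf s := by
      rw [hz]
      exact MulEquiv.orderOf_eq (MulAut.conj z) s
    rw [← h3] at h2
    exact Nat.eq_one_of_dvd_coprimes (coprime_nums q) h1 h2
  -- the elements
  obtain ⟨r₁, hr₁, hr₁d⟩ := Nat.exists_prime_and_dvd (n := Nat.card T) (by omega)
  obtain ⟨r₂, hr₂, hr₂d⟩ := Nat.exists_prime_and_dvd (n := Nat.card B) (by omega)
  have : Fact r₁.Prime := ⟨hr₁⟩
  have : Fact r₂.Prime := ⟨hr₂⟩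
  obtain ⟨x, hx⟩ := exists_prime_orderOf_dvd_card' (G := T) r₁ hr₁d
  obtain ⟨y, hy⟩ := exists_prime_orderOf_dvd_card' (G := B) r₂ hr₂d
  have hxo : orderOf (x : ↥(chevF4.group K)) = r₁ := by rw [Subgroup.orderOf_coe, hx]
  have hyo : orderOf (y : ↥(chevF4.group K)) = r₂ := by rw [Subgroup.orderOf_coe, hy]
  have hx1 : (x : ↥(chevF4.group K)) ≠ 1 := by
    intro h1
    rw [h1, orderOf_one] at hxo
    exact hr₁.one_lt.ne hxo
  have hy1 : (y : ↥(chevF4.group K)) ≠ 1 := by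
    intro h1
    rw [h1, orderOf_one] at hyo
    exact hr₂.one_lt.ne hyo
  have hpT : ¬ p ∣ Nat.card T := by rw [hTc]; exact not_dvd_num12 hp hpq
  have hpS : ¬ p ∣ Nat.card S := by rw [hSc]; exact not_dvd_num8 hp hpq
  have hpB : ¬ p ∣ Nat.card B := fun hd => hpS (hd.trans (by rw [hSc2]; exact dvd_mul_left _ _))
  have hxC : Nat.card ↥(centralizer ({(x : ↥(chevF4.group K))} : Set ↥(chevF4.group K))) = Nat.card T := by
    rw [hTcent x x.2 hx1]
  have hyC : Nat.card ↥(centralizer ({(y : ↥(chevF4.group K))} : Set ↥(chevF4.group K))) = Nat.card S := by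
    rw [hBcent y y.2 hy1]
  have hxp : ¬ p ∣ orderOf (x : ↥(chevF4.group K)) := fun hd => hpT (hd.trans (by rw [hxo]; exact hr₁d))
  have hyp : ¬ p ∣ orderOf (y : ↥(chevF4.group K)) := fun hd => hpB (hd.trans (by rw [hyo]; exact hr₂d))
  have hr₁6 : Nat.Coprime r₁ 6 := by
    refine Nat.Coprime.coprime_dvd_left hr₁d ?_
    rw [hTc]
    exact coprime6_12 q
  have hr₂6 : Nat.Coprime r₂ 6 := by
    have h1 : ¬ r₂ ∣ 6 := by
      intro hd
      have h2 : r₂ ∣ 2 * 3 := hd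
      rcases (hr₂.dvd_mul).1 h2 with h3 | h3
      · rw [(Nat.prime_dvd_prime_iff_eq hr₂ Nat.prime_two).1 h3] at hr₂d
        rw [hBc] at hr₂d
        exact odd_half hodd hr₂d
      · rw [(Nat.prime_dvd_prime_iff_eq hr₂ Nat.prime_three).1 h3] at hr₂d
        refine coprime3_8 q (hr₂d.trans ?_)
        rw [hBc]
        exact ⟨2, by rw [mul_comm]; exact h28⟩
    exact (hr₂.coprime_iff_not_dvd).2 h1
  obtain ⟨st, -, hstv, hst0, -, -⟩ := H727.TC.exists_st hp hG
  have hnorm : ∀ z : ↥(chevF4.group K), ¬ p ∣ orderOf z →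
      ¬ p ∣ Nat.card ↥(centralizer ({z} : Set ↥(chevF4.group K))) → ‖(st : ↥(chevF4.group K) → ℂ) z‖ = 1 := by
    intro z hz hz'
    have h1 : (Nat.card ↥(centralizer ({z} : Set ↥(chevF4.group K)))).factorization p = 0 :=
      Nat.factorization_eq_zero_of_not_dvd hz'
    rcases hstv z hz with h2 | h2 <;> rw [h2, h1] <;> simp
  have hall : ∀ g : ↥(chevF4.group K), g ≠ 1 → ∃ u v : ↥(chevF4.group K), g = (u * x * u⁻¹) * (v * y * v⁻¹) := by
    intro g hg
    by_cases hgp : p ∣ orderOf g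
    · have hst1 : st ≠ one1 ↥(chevF4.group K) := by
        intro h1
        have h2 := hst0 g hgp
        rw [h1, one1_apply] at h2
        exact one_ne_zero h2
      exact H628.FR.prd_of_ratio_even (w := 12) (v := 8) hT hS hTrel hSrel (by rw [one_mul]) hSc2
        (by omega) (by omega) (by omega) (by omega) hdis x.2 hx1 y.2 hy1 hst1
        (hnorm x hxp (by rw [hxC]; exact hpT)) (hnorm y hyp (by rw [hyC]; exact hpS)) (hst0 g hgp) (N := 10)
        (by decide) (by norm_num) (fun χ h1 _ => by exact_mod_cast h g hgp χ h1)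
    · obtain ⟨u, v, e⟩ := H330.Gow.gow hp hG (by rw [hxC]; exact hpT) (by rw [hyC]; exact hpS) hg hgp
      exact ⟨u, v, e.symm⟩
  exact ⟨x, y, by rw [hxo]; exact hr₁, by rw [hxo]; exact hr₁6, by rw [hyo]; exact hr₂, by rw [hyo]; exact hr₂6, hall,
    H727.TC.cube_of_gow hp hG (by rw [hxC]; exact hpT) hx1 hyp hy1 hall⟩

end Cfsg.Agent.H982.FR
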