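import Cfsg.Agent.H885.FT.Eng
import Cfsg.Agent.H221.TC.Nonc

/-!
# Two clean tori: the class product sum from one ratio (helper982; S2452, S2464)

`(A, T, m)`, `(B, S, k)` clean tori, `w = |N(T) : T|`, `v = |N(S) : S|`, with disjoint supports.

* `sum_const_le` : the squares of the constant values on `A - 1` add up to at most `w m`;
* `both_const` : a character which vanishes neither at `x ∈ A - 1` nor at `y ∈ B - 1` is constant on both sets;
* `prd_of_ratio` : if `(w m - 2) (v k - 2) < (N + 1) ^ 2` and `N |χ(g)| < χ(1)` for every `χ ≠ 1, St`, `St(g) = 0`, then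
  `g` is a product of a conjugate of `x` and a conjugate of `y`.
-/

set_option autoImplicit false
set_option linter.unusedSectionVars false
set_option linter.style.haveILetI false

open Cfsg Subgroup
open scoped ComplexConjugate

namespace Cfsg.Agent.H982.FR

open Cfsg.Agent.Characters.Core Cfsg.Agent.H65.Ore Cfsg.Agent.H221.TC
open Cfsg.Agent.H885.FT (mid mem_mid sum_mid norm_one_pos)

universe u

variable {G : Type u} [Group G] {A T : Subgroup G} {m : ℕ}

theorem pow_ne (h : Tor A T m) {a : G} (ha : a ∈ A) (ha1 : a ≠ 1) : a ^ m ≠ 1 := by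
  intro h1
  apply ha1
  have h2 : (⟨a, ha⟩ : A) ^ m = 1 := Subtype.ext h1
  have h3 : orderOf (⟨a, ha⟩ : A) ∣ m := orderOf_dvd_of_pow_eq_one h2
  have h4 : orderOf (⟨a, ha⟩ : A) ∣ Nat.card A := orderOf_dvd_natCard _
  have h5 : orderOf (⟨a, ha⟩ : A) = 1 := Nat.eq_one_of_dvd_coprimes h.cop h3 h4
  exact congrArg Subtype.val (orderOf_eq_one_iff.1 h5)

theorem cent_eq (h : Tor A T m) {a : G} (ha : a ∈ A) (ha1 : a ≠ 1) : Subgroup.centralizer ({a} : Set G) = T := by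
  refine le_antisymm (h.cent a ha ha1) fun t ht => ?_
  rw [Subgroup.mem_centralizer_singleton_iff]
  exact h.comm t ht a (h.le ha)

theorem card_conj_le [Finite G] (h : Tor A T m) {w : ℕ} (hw : T.relIndex (normalizer (T : Set G)) = w) {a : G}
    (ha : a ∈ A) (ha1 : a ≠ 1) : Nat.card {b : A // IsConj (b : G) a} ≤ w := by
  classical
  have hz : ∀ b : {b : A // IsConj (b : G) a}, ∃ z : G, z * a * z⁻¹ = (b.1 : G) := by
    intro b
    exact isConj_iff.1 b.2.symm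
  choose z hz using hz
  have hzN : ∀ b, z b ∈ normalizer (T : Set G) := by
    intro b
    have h1 : (z b)⁻¹ ∈ normalizer (T : Set G) := by
      refine h.ti (h.le ha) (pow_ne h ha ha1) ?_
      rw [inv_inv, hz b]
      exact h.le b.1.2
    simpa using inv_mem h1
  have h1 : Nat.card ({b : A // IsConj (b : G) a} × T) ≤ Nat.card (normalizer (T : Set G)) := by
    refine Nat.card_le_card_of_injective (fun p => (⟨z p.1 * p.2, mul_mem (hzN p.1) (le_normalizer p.2.2)⟩ :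
      normalizer (T : Set G))) ?_
    rintro ⟨b, t⟩ ⟨b', t'⟩ hbt
    have h2 : z b * (t : G) = z b' * t' := congrArg Subtype.val hbt
    have h3 : ∀ (b : {b : A // IsConj (b : G) a}) (t : T), z b * (t : G) * a * (z b * (t : G))⁻¹ = (b.1 : G) := by
      intro b t
      have h4 : (t : G) * a = a * t := h.comm t t.2 a (h.le ha)
      calc z b * (t : G) * a * (z b * (t : G))⁻¹ = z b * ((t : G) * a) * (t : G)⁻¹ * (z b)⁻¹ := by group
        _ = z b * (a * t) * (t : G)⁻¹ * (z b)⁻¹ := by rw [h4]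
        _ = z b * a * (z b)⁻¹ := by group
        _ = (b.1 : G) := hz b
    have h5 : b = b' := by
      apply Subtype.ext
      apply Subtype.ext
      rw [← h3 b t, ← h3 b' t', h2]
    subst h5
    have h6 : (t : G) = t' := mul_left_cancel h2
    rw [Subtype.ext h6]
  rw [Nat.card_prod] at h1
  have h2 : Nat.card (T.subgroupOf (normalizer (T : Set G))) = Nat.card T :=
    Nat.card_congr (Subgroup.subgroupOfEquivOfLe le_normalizer).toEquiv
  have h3 : w * Nat.card T = Nat.card (normalizer (T : Set G)) := by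
    rw [← hw, ← h2]
    exact Subgroup.index_mul_card (T.subgroupOf (normalizer (T : Set G)))
  rw [← h3] at h1
  exact Nat.le_of_mul_le_mul_right h1 Nat.card_pos

theorem sum_const_le [Finite G] (h : Tor A T m) {w : ℕ} (hw : T.relIndex (normalizer (T : Set G)) = w)
    (hc : Nat.card T = m * Nat.card A) (hbig : w * m + 1 < Nat.card A) (S : Finset (IrrCharacter G))
    (c : IrrCharacter G → ℤ) (hS : ∀ χ ∈ S, ∀ a ∈ A, a ≠ 1 → (χ : G → ℂ) a = c χ) : ∑ χ ∈ S, c χ ^ 2 ≤ w * m := by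
  classical
  have : Finite (IrrCharacter G) := finite_irr
  have := Fintype.ofFinite (IrrCharacter G)
  have := Fintype.ofFinite A
  let E : Finset A := Finset.univ.erase 1
  have hE : ∀ a : A, a ∈ E → (a : G) ≠ 1 := fun a ha h1 => (Finset.mem_erase.1 ha).1 (Subtype.ext h1)
  have hEc : (E.card : ℤ) = Nat.card A - 1 := by
    rw [Finset.card_erase_of_mem (Finset.mem_univ _), Finset.card_univ, Nat.card_eq_fintype_card, Nat.cast_sub Fintype.card_pos]
    simp
  let F : IrrCharacter G → ℂ := fun χ => ∑ a ∈ E, (χ : G → ℂ) a.1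
  have h1 : ∑ χ : IrrCharacter G, F χ * conj (F χ) =
      ((∑ b ∈ E, (E.filter fun a : A => IsConj (a : G) (b : G)).card * Nat.card T : ℕ) : ℂ) := by
    have h2 : ∀ χ : IrrCharacter G, F χ * conj (F χ) =
        ∑ b ∈ E, ∑ a ∈ E, (χ : G → ℂ) a.1 * conj ((χ : G → ℂ) b.1) := by
      intro χ
      rw [map_sum, Finset.sum_mul_sum, Finset.sum_comm]
    rw [Finset.sum_congr rfl fun χ _ => h2 χ, Finset.sum_comm]
    push_cast
    refine Finset.sum_congr rfl fun b hb => ?_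
    rw [Finset.sum_comm]
    rw [Finset.sum_congr rfl fun a _ => H686.CharKit.col_orth a.1 b.1, ← Finset.sum_filter, Finset.sum_const,
      nsmul_eq_mul, cent_eq h b.2 (hE b hb)]
  have h3 : (∑ b ∈ E, (E.filter fun a : A => IsConj (a : G) (b : G)).card * Nat.card T) ≤ E.card * (w * Nat.card T) := by
    rw [← smul_eq_mul, ← Finset.sum_const]
    refine Finset.sum_le_sum fun b hb => Nat.mul_le_mul_right _ ?_
    refine le_trans ?_ (card_conj_le h hw b.2 (hE b hb))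
    rw [Nat.card_eq_fintype_card, Fintype.card_subtype]
    exact Finset.card_le_card fun a ha => Finset.mem_filter.2 ⟨Finset.mem_univ _, (Finset.mem_filter.1 ha).2⟩
  have h4 : ∑ χ : IrrCharacter G, Complex.normSq (F χ) ≤ E.card * (w * Nat.card T) := by
    have h5 : ((∑ χ : IrrCharacter G, Complex.normSq (F χ) : ℝ) : ℂ) =
        (((∑ b ∈ E, (E.filter fun a : A => IsConj (a : G) (b : G)).card * Nat.card T : ℕ) : ℝ) : ℂ) := by
      rw [Complex.ofReal_natCast, ← h1]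
      push_cast
      exact Finset.sum_congr rfl fun χ _ => by rw [Complex.mul_conj]
    have h6 : (∑ χ : IrrCharacter G, Complex.normSq (F χ) : ℝ) =
        ((∑ b ∈ E, (E.filter fun a : A => IsConj (a : G) (b : G)).card * Nat.card T : ℕ) : ℝ) := by
      exact_mod_cast h5
    rw [h6]
    exact_mod_cast h3
  have h5 : ∑ χ ∈ S, ((E.card : ℝ) ^ 2 * (c χ : ℝ) ^ 2) ≤ ∑ χ : IrrCharacter G, Complex.normSq (F χ) := by
    refine le_trans (le_of_eq (Finset.sum_congr rfl fun χ hχ => ?_))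
      (Finset.sum_le_sum_of_subset_of_nonneg (Finset.subset_univ S) fun χ _ _ => Complex.normSq_nonneg _)
    have h6 : F χ = (((E.card : ℝ) * (c χ : ℝ) : ℝ) : ℂ) := by
      show ∑ a ∈ E, (χ : G → ℂ) a.1 = _
      rw [Finset.sum_congr rfl fun (a : A) (ha : a ∈ E) => hS χ hχ a.1 a.2 (hE a ha), Finset.sum_const, nsmul_eq_mul]
      push_cast
      ring
    rw [h6, Complex.normSq_ofReal]
    ring
  have h6 : ((E.card : ℤ) ^ 2 * ∑ χ ∈ S, c χ ^ 2) ≤ E.card * (w * Nat.card T) := by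
    have h7 := h5.trans h4
    rw [← Finset.mul_sum] at h7
    exact_mod_cast h7
  rw [hEc, hc] at h6
  set n : ℤ := (Nat.card A : ℤ) with hn
  set s := ∑ χ ∈ S, c χ ^ 2 with hs
  have h8 : (w : ℤ) * m + 1 < n := by rw [hn]; exact_mod_cast hbig
  have hwm : (0 : ℤ) ≤ (w : ℤ) * m := by positivity
  by_contra hcon
  have h9 : (w : ℤ) * m + 1 ≤ s := by omega
  push_cast at h6
  have h10 : (n - 1) * ((n - 1) * s) ≤ (n - 1) * ((w : ℤ) * (m * n)) := by
    calc (n - 1) * ((n - 1) * s) = (n - 1) ^ 2 * s := by ring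
      _ ≤ _ := by rw [hn]; exact h6
  have h11 : (n - 1) * s ≤ (w : ℤ) * (m * n) := le_of_mul_le_mul_left h10 (by linarith)
  have h12 : (n - 1) * ((w : ℤ) * m + 1) ≤ (n - 1) * s := mul_le_mul_of_nonneg_left h9 (by linarith)
  nlinarith


variable {B S : Subgroup G} {k : ℕ}

theorem inner_eq_zero_of_disj [Fintype G] {α β : G → ℂ} (h : ∀ g, α g = 0 ∨ β g = 0) : classInner α β = 0 := by
  rw [classInner_def]
  refine mul_eq_zero_of_right _ (Finset.sum_eq_zero fun g _ => ?_)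
  rcases h g with h1 | h1
  · rw [h1, zero_mul]
  · rw [h1, map_zero, mul_zero]

/-- one side of `both_const` -/
theorem const_left [Finite G] (hT : Tor A T m) (hS : Tor B S k) {w v : ℕ}
    (hw : T.relIndex (normalizer (T : Set G)) = w) (hv : S.relIndex (normalizer (S : Set G)) = v)
    (hSc : Nat.card S = k * Nat.card B)
    (hA : v * k * w + w + 1 < Nat.card A) (hB : v * k + v + 1 < Nat.card B)
    (hdis : ∀ t ∈ T, t ^ m ≠ 1 → ∀ s ∈ S, s ^ k ≠ 1 → ∀ z : G, t ≠ z * s * z⁻¹)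
    {χ : IrrCharacter G} {y : G} (hy : y ∈ B) (hy1 : y ≠ 1) (hχy : (χ : G → ℂ) y ≠ 0) :
    ∃ c : ℤ, ∀ a ∈ A, a ≠ 1 → (χ : G → ℂ) a = c := by
  classical
  have := Fintype.ofFinite G
  have : Finite (IrrCharacter G) := finite_irr
  have := Fintype.ofFinite (IrrCharacter G)
  by_contra hχ
  obtain ⟨n, M, hM, hn, ⟨i₀, hi₀⟩, hag⟩ := fam_of_nonconst hT hw χ hχ
  have hdis' : ∀ s ∈ S, s ^ k ≠ 1 → ∀ x : G, ∀ t ∈ T, t ^ m ≠ 1 → s ≠ x * t * x⁻¹ := by
    intro s hs hs1 x t ht ht1 h1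
    exact hdis t ht ht1 s hs hs1 x⁻¹ (by rw [h1]; group)
  have hn2 : v * k + 2 ≤ n := by
    by_contra hcon
    have h1 : n * w ≤ (v * k + 1) * w := Nat.mul_le_mul_right _ (by omega)
    have h2 : (v * k + 1) * w = v * k * w + w := by ring
    omega
  by_cases hχB : ∃ d : ℤ, ∀ b ∈ B, b ≠ 1 → (χ : G → ℂ) b = d
  · obtain ⟨d, hd⟩ := hχB
    have hd0 : d ≠ 0 := by
      rintro rfl
      exact hχy (by rw [hd y hy hy1]; simp)
    have h1 := sum_const_le hS hv hSc (by omega) (Finset.univ.image M) (fun _ => d) (by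
      intro ψ hψ b hb hb1
      obtain ⟨i, -, rfl⟩ := Finset.mem_image.1 hψ
      rw [hag i i₀ b (fun x t ht ht1 => hdis' b (hS.le hb) (pow_ne hS hb hb1) x t ht ht1), hi₀]
      exact hd b hb hb1)
    rw [Finset.sum_const, Finset.card_image_of_injective _ hM, Finset.card_univ, Fintype.card_fin, nsmul_eq_mul] at h1
    have h2 : (1 : ℤ) ≤ d ^ 2 := by
      have : 0 < d ^ 2 := by positivity
      omega
    have h3 : (v : ℤ) * k + 2 ≤ n := by exact_mod_cast hn2
    have h4 : (n : ℤ) * 1 ≤ n * d ^ 2 := mul_le_mul_of_nonneg_left h2 (by positivity)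
    linarith
  · obtain ⟨n', N, hN, hn', ⟨j₀, hj₀⟩, hag'⟩ := fam_of_nonconst hS hv χ hχB
    have hn2' : 2 ≤ n' := by
      by_contra hcon
      have h1 : n' * v ≤ 1 * v := Nat.mul_le_mul_right _ (by omega)
      omega
    obtain ⟨i, hi⟩ : ∃ i : Fin n, i ≠ i₀ := by
      have : Nontrivial (Fin n) := Fin.nontrivial_iff_two_le.2 (by omega)
      exact exists_ne i₀
    obtain ⟨j, hj⟩ : ∃ j : Fin n', j ≠ j₀ := by
      have : Nontrivial (Fin n') := Fin.nontrivial_iff_two_le.2 hn2'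
      exact exists_ne j₀
    have h1 : classInner ((M i : G → ℂ) - (M i₀ : G → ℂ)) ((N j : G → ℂ) - (N j₀ : G → ℂ)) = 0 := by
      refine inner_eq_zero_of_disj fun g => ?_
      by_cases hg : ∀ x : G, ∀ t ∈ T, t ^ m ≠ 1 → g ≠ x * t * x⁻¹
      · left
        rw [Pi.sub_apply, hag i i₀ g hg, sub_self]
      · right
        push Not at hg
        obtain ⟨x, t, ht, ht1, rfl⟩ := hg
        rw [Pi.sub_apply, hag' j j₀ _ ?_, sub_self]
        intro z s hs hs1 h2
        exact hdis t ht ht1 s hs hs1 (x⁻¹ * z) (by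
          calc t = x⁻¹ * (x * t * x⁻¹) * x := by group
            _ = x⁻¹ * (z * s * z⁻¹) * x := by rw [h2]
            _ = x⁻¹ * z * s * (x⁻¹ * z)⁻¹ := by group)
    rw [classInner_sub_left, classInner_sub_right, classInner_sub_right, hi₀, hj₀] at h1
    have h2 : classInner (M i : G → ℂ) (χ : G → ℂ) = 0 :=
      classInner_irr_ne (M i).2 χ.2 fun h => hi (hM (Subtype.ext (by rw [h, hi₀])))
    have h3 : classInner (χ : G → ℂ) (N j : G → ℂ) = 0 :=
      classInner_irr_ne χ.2 (N j).2 fun h => hj (hN (Subtype.ext (by rw [← h, hj₀])))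
    have h4 : classInner (χ : G → ℂ) (χ : G → ℂ) = 1 := classInner_irr_self χ.2
    rw [h2, h3, h4] at h1
    by_cases h5 : M i = N j
    · rw [h5, classInner_irr_self (N j).2] at h1
      norm_num at h1
    · rw [classInner_irr_ne (M i).2 (N j).2 fun h => h5 (Subtype.ext h)] at h1
      norm_num at h1

/-- **The ratio form for two clean tori.** -/
theorem prd_of_ratio [Finite G] (hT : Tor A T m) (hS : Tor B S k) {w v : ℕ}
    (hw : T.relIndex (normalizer (T : Set G)) = w) (hv : S.relIndex (normalizer (S : Set G)) = v)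
    (hTc : Nat.card T = m * Nat.card A) (hSc : Nat.card S = k * Nat.card B)
    (hA : v * k * w + w + 1 < Nat.card A) (hA' : w * m + w + 1 < Nat.card A)
    (hB : w * m * v + v + 1 < Nat.card B) (hB' : v * k + v + 1 < Nat.card B)
    (hdis : ∀ t ∈ T, t ^ m ≠ 1 → ∀ s ∈ S, s ^ k ≠ 1 → ∀ z : G, t ≠ z * s * z⁻¹)
    {x y g : G} (hx : x ∈ A) (hx1 : x ≠ 1) (hy : y ∈ B) (hy1 : y ≠ 1)
    {St : IrrCharacter G} (hSt1 : St ≠ one1 G) (hStx : ‖(St : G → ℂ) x‖ = 1) (hSty : ‖(St : G → ℂ) y‖ = 1)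
    (hStg : (St : G → ℂ) g = 0) {N : ℕ} (hN : ((w : ℤ) * m - 2) * ((v : ℤ) * k - 2) < ((N : ℤ) + 1) ^ 2)
    (hrat : ∀ χ : IrrCharacter G, χ ≠ one1 G → χ ≠ St → N * ‖(χ : G → ℂ) g‖ < ‖(χ : G → ℂ) 1‖) : Prd x y g := by
  classical
  have : Finite (IrrCharacter G) := finite_irr
  have := Fintype.ofFinite (IrrCharacter G)
  by_contra hno
  have h0 : ∑ χ : IrrCharacter G, (χ : G → ℂ) x * (χ : G → ℂ) y * conj ((χ : G → ℂ) g) / (χ : G → ℂ) 1 = 0 := by
    by_contra h1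
    exact hno (prd_of_ne_zero h1)
  have hdis' : ∀ s ∈ S, s ^ k ≠ 1 → ∀ t ∈ T, t ^ m ≠ 1 → ∀ z : G, s ≠ z * t * z⁻¹ := by
    intro s hs hs1 t ht ht1 z h1
    exact hdis t ht ht1 s hs hs1 z⁻¹ (by rw [h1]; group)
  have hcA : ∀ χ : IrrCharacter G, (χ : G → ℂ) y ≠ 0 → ∃ c : ℤ, ∀ a ∈ A, a ≠ 1 → (χ : G → ℂ) a = c := fun χ h =>
    const_left hT hS hw hv hSc hA hB' hdis hy hy1 h
  have hcB : ∀ χ : IrrCharacter G, (χ : G → ℂ) x ≠ 0 → ∃ c : ℤ, ∀ b ∈ B, b ≠ 1 → (χ : G → ℂ) b = c := fun χ h =>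
    const_left hS hT hv hw hTc hB hA' hdis' hx hx1 h
  let c : IrrCharacter G → ℤ := fun χ => if h : ∃ c : ℤ, ∀ a ∈ A, a ≠ 1 → (χ : G → ℂ) a = c then h.choose else 0
  let d : IrrCharacter G → ℤ := fun χ => if h : ∃ c : ℤ, ∀ b ∈ B, b ≠ 1 → (χ : G → ℂ) b = c then h.choose else 0
  have hc : ∀ χ : IrrCharacter G, (χ : G → ℂ) y ≠ 0 → ∀ a ∈ A, a ≠ 1 → (χ : G → ℂ) a = c χ := by
    intro χ h
    have h1 := hcA χ h
    show ∀ a ∈ A, a ≠ 1 → (χ : G → ℂ) a = ((if h : ∃ c : ℤ, ∀ a ∈ A, a ≠ 1 → (χ : G → ℂ) a = c then h.choose else 0 : ℤ) : ℂ)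
    rw [dif_pos h1]
    exact h1.choose_spec
  have hd : ∀ χ : IrrCharacter G, (χ : G → ℂ) x ≠ 0 → ∀ b ∈ B, b ≠ 1 → (χ : G → ℂ) b = d χ := by
    intro χ h
    have h1 := hcB χ h
    show ∀ b ∈ B, b ≠ 1 → (χ : G → ℂ) b = ((if h : ∃ c : ℤ, ∀ b ∈ B, b ≠ 1 → (χ : G → ℂ) b = c then h.choose else 0 : ℤ) : ℂ)
    rw [dif_pos h1]
    exact h1.choose_spec
  -- the middle characters
  let R : Finset (IrrCharacter G) := (mid G St).filter fun χ => (χ : G → ℂ) x ≠ 0 ∧ (χ : G → ℂ) y ≠ 0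
  have hR : ∀ χ ∈ R, (χ : G → ℂ) x = c χ ∧ (χ : G → ℂ) y = d χ ∧ χ ≠ St ∧ χ ≠ one1 G ∧ c χ ≠ 0 ∧ d χ ≠ 0 := by
    intro χ hχ
    obtain ⟨h1, h2, h3⟩ := Finset.mem_filter.1 hχ
    have h4 := hc χ h3 x hx hx1
    have h5 := hd χ h2 y hy hy1
    have h6 := mem_mid.1 h1
    refine ⟨h4, h5, h6.1, h6.2, ?_, ?_⟩
    · intro h7; exact h2 (by rw [h4, h7]; simp)
    · intro h7; exact h3 (by rw [h5, h7]; simp)
  have hStx0 : (St : G → ℂ) x ≠ 0 := fun h => by rw [h] at hStx; simp at hStx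
  have hSty0 : (St : G → ℂ) y ≠ 0 := fun h => by rw [h] at hSty; simp at hSty
  have hcSt : c St ^ 2 = 1 := by
    have h1 := hc St hSty0 x hx hx1
    rw [h1, Complex.norm_intCast] at hStx
    have h2 : |c St| = 1 := by exact_mod_cast hStx
    rw [← sq_abs, h2, one_pow]
  have hdSt : d St ^ 2 = 1 := by
    have h1 := hd St hStx0 y hy hy1
    rw [h1, Complex.norm_intCast] at hSty
    have h2 : |d St| = 1 := by exact_mod_cast hSty
    rw [← sq_abs, h2, one_pow]
  have hc1 : c (one1 G) = 1 := by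
    have h1 := hc (one1 G) (by rw [one1_apply]; exact one_ne_zero) x hx hx1
    rw [one1_apply] at h1
    exact_mod_cast h1.symm
  have hd1 : d (one1 G) = 1 := by
    have h1 := hd (one1 G) (by rw [one1_apply]; exact one_ne_zero) y hy hy1
    rw [one1_apply] at h1
    exact_mod_cast h1.symm
  have hR1 : one1 G ∉ R := fun h => (hR _ h).2.2.2.1 rfl
  have hRS : St ∉ R := fun h => (hR _ h).2.2.1 rfl
  have hins : one1 G ∉ insert St R := by
    rw [Finset.mem_insert]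
    rintro (h | h)
    · exact hSt1 h.symm
    · exact hR1 h
  have hcR : ∑ χ ∈ R, c χ ^ 2 ≤ (w : ℤ) * m - 2 := by
    have h1 := sum_const_le hT hw hTc (by omega) (insert (one1 G) (insert St R)) c (by
      intro χ hχ
      rw [Finset.mem_insert, Finset.mem_insert] at hχ
      rcases hχ with rfl | rfl | hχ
      · exact hc _ (by rw [one1_apply]; exact one_ne_zero)
      · exact hc _ hSty0
      · exact hc _ (Finset.mem_filter.1 hχ).2.2)
    rw [Finset.sum_insert hins, Finset.sum_insert hRS, hcSt, hc1] at h1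
    linarith
  have hdR : ∑ χ ∈ R, d χ ^ 2 ≤ (v : ℤ) * k - 2 := by
    have h1 := sum_const_le hS hv hSc (by omega) (insert (one1 G) (insert St R)) d (by
      intro χ hχ
      rw [Finset.mem_insert, Finset.mem_insert] at hχ
      rcases hχ with rfl | rfl | hχ
      · exact hd _ (by rw [one1_apply]; exact one_ne_zero)
      · exact hd _ hStx0
      · exact hd _ (Finset.mem_filter.1 hχ).2.1)
    rw [Finset.sum_insert hins, Finset.sum_insert hRS, hdSt, hd1] at h1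
    linarith
  have hcd : ∑ χ ∈ R, |c χ| * |d χ| ≤ N := by
    have h1 := Finset.sum_mul_sq_le_sq_mul_sq R (fun χ => |c χ|) (fun χ => |d χ|)
    simp only [sq_abs] at h1
    have h2 : 0 ≤ ∑ χ ∈ R, c χ ^ 2 := Finset.sum_nonneg fun χ _ => sq_nonneg _
    have h3 : 0 ≤ ∑ χ ∈ R, d χ ^ 2 := Finset.sum_nonneg fun χ _ => sq_nonneg _
    have h4 : (∑ χ ∈ R, c χ ^ 2) * (∑ χ ∈ R, d χ ^ 2) ≤ ((w : ℤ) * m - 2) * ((v : ℤ) * k - 2) :=
      mul_le_mul hcR hdR h3 (h2.trans hcR)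
    have h5 : (∑ χ ∈ R, |c χ| * |d χ|) ^ 2 < ((N : ℤ) + 1) ^ 2 := (h1.trans h4).trans_lt hN
    have h6 := abs_lt_of_sq_lt_sq h5 (by positivity)
    have h7 := le_abs_self (∑ χ ∈ R, |c χ| * |d χ|)
    omega
  -- the sum
  rw [sum_mid hSt1, hStg] at h0
  simp only [one1_apply, map_one, map_zero, zero_div, mul_zero, zero_add, mul_one, div_one] at h0
  have h1 : ∑ χ ∈ mid G St, (χ : G → ℂ) x * (χ : G → ℂ) y * conj ((χ : G → ℂ) g) / (χ : G → ℂ) 1 =
      ∑ χ ∈ R, (χ : G → ℂ) x * (χ : G → ℂ) y * conj ((χ : G → ℂ) g) / (χ : G → ℂ) 1 := by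
    refine (Finset.sum_subset (Finset.filter_subset _ _) fun χ h1 h2 => ?_).symm
    have h3 : (χ : G → ℂ) x = 0 ∨ (χ : G → ℂ) y = 0 := by
      by_contra h4
      push Not at h4
      exact h2 (Finset.mem_filter.2 ⟨h1, h4⟩)
    rcases h3 with h3 | h3 <;> rw [h3] <;> simp
  rw [h1] at h0
  have h2 : (1 : ℝ) ≤ ∑ χ ∈ R, ((|c χ| * |d χ| : ℤ) : ℝ) * (‖(χ : G → ℂ) g‖ / ‖(χ : G → ℂ) 1‖) := by
    have h3 : ∑ χ ∈ R, (χ : G → ℂ) x * (χ : G → ℂ) y * conj ((χ : G → ℂ) g) / (χ : G → ℂ) 1 = -1 := by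
      linear_combination h0
    have h4 := norm_sum_le R fun χ => (χ : G → ℂ) x * (χ : G → ℂ) y * conj ((χ : G → ℂ) g) / (χ : G → ℂ) 1
    rw [h3, norm_neg, norm_one] at h4
    refine h4.trans (le_of_eq (Finset.sum_congr rfl fun χ hχ => ?_))
    obtain ⟨h5, h6, -⟩ := hR χ hχ
    rw [norm_div, norm_mul, norm_mul, Complex.norm_conj, h5, h6, Complex.norm_intCast, Complex.norm_intCast]
    push_cast
    ring
  rcases R.eq_empty_or_nonempty with hRe | ⟨χ₀, hχ₀⟩
  · rw [hRe, Finset.sum_empty] at h2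
    linarith
  · have hN0 : 0 < (N : ℝ) := by
      have h3 : |c χ₀| * |d χ₀| ≤ ∑ χ ∈ R, |c χ| * |d χ| :=
        Finset.single_le_sum (f := fun χ => |c χ| * |d χ|) (fun χ _ => by positivity) hχ₀
      obtain ⟨-, -, -, -, h4, h5⟩ := hR χ₀ hχ₀
      have h6 : 0 < |c χ₀| * |d χ₀| := by positivity
      have h7 : (0 : ℤ) < N := by linarith
      exact_mod_cast h7
    have h3 : ∑ χ ∈ R, ((|c χ| * |d χ| : ℤ) : ℝ) * (‖(χ : G → ℂ) g‖ / ‖(χ : G → ℂ) 1‖) <
        ∑ χ ∈ R, ((|c χ| * |d χ| : ℤ) : ℝ) * (1 / N) := by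
      refine Finset.sum_lt_sum_of_nonempty ⟨χ₀, hχ₀⟩ fun χ hχ => ?_
      obtain ⟨-, -, h4, h5, h6, h7⟩ := hR χ hχ
      have h8 : (0 : ℝ) < ((|c χ| * |d χ| : ℤ) : ℝ) := by
        have : 0 < |c χ| * |d χ| := by positivity
        exact_mod_cast this
      refine mul_lt_mul_of_pos_left ?_ h8
      rw [div_lt_div_iff₀ (norm_one_pos χ) hN0]
      have := hrat χ h5 h4
      linarith
    rw [← Finset.sum_mul] at h3
    have h4 : (∑ χ ∈ R, ((|c χ| * |d χ| : ℤ) : ℝ)) ≤ N := by exact_mod_cast hcd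
    have h5 : (∑ χ ∈ R, ((|c χ| * |d χ| : ℤ) : ℝ)) * (1 / N) ≤ N * (1 / N) :=
      mul_le_mul_of_nonneg_right h4 (by positivity)
    have h6 : (N : ℝ) * (1 / N) = 1 := by field_simp
    linarith

end Cfsg.Agent.H982.FR
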